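import Cfsg.Agent.H100.C3.StepOne
import Cfsg.Agent.H100.C3.ArfLift
import Cfsg.Agent.H527.C3.StrL

/-!
# S1920, case B, orthogonal groups, section 2, step (2): only section 5 is left (helper100)
-/

set_option autoImplicit false
set_option linter.unusedSectionVars false

open Subgroup
open scoped commutatorElement

namespace Cfsg.Agent.H100.C3

open QuadraticMap Cfsg.Agent.H415.C3 Cfsg.Agent.LieClassical.OrthCore Cfsg.Agent.LieClassical.OrthTrans
open Cfsg.Agent.H527.C3
open Module (finrank)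

section lin

variable {F V : Type*} [Field F] [AddCommGroup V] [Module F V] {Q : QuadraticForm F V}

/-- the space `u = -1` -/
def Vn (u : V ≃ₗ[F] V) : Submodule F V where
  carrier := {v | u v = -v}
  add_mem' := fun {a b} ha hb => by
    change u (a + b) = -(a + b)
    rw [map_add, show u a = -a from ha, show u b = -b from hb]; abel
  zero_mem' := by
    change u 0 = -0
    rw [map_zero, neg_zero]
  smul_mem' := fun c v hv => by
    change u (c • v) = -(c • v)
    rw [map_smul, show u v = -v from hv, smul_neg]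

theorem mem_Vn {u : V ≃ₗ[F] V} {v : V} : v ∈ Vn u ↔ u v = -v := Iff.rfl

theorem cen_apply {u g : V ≃ₗ[F] V} (hg : g ∈ centralizer ({u} : Set (V ≃ₗ[F] V))) (v : V) : u (g v) = g (u v) :=
  (LinearEquiv.congr_fun (mem_centralizer_singleton_iff.1 hg) v).symm

theorem cen_Vn {u g : V ≃ₗ[F] V} (hg : g ∈ centralizer ({u} : Set (V ≃ₗ[F] V))) {v : V} (hv : v ∈ Vn u) :
    g v ∈ Vn u := by
  rw [mem_Vn, cen_apply hg, mem_Vn.1 hv, map_neg]

/-- restriction to `Vn u` -/
def resW (u : V ≃ₗ[F] V) : ↥(centralizer ({u} : Set (V ≃ₗ[F] V))) →* (↥(Vn u) ≃ₗ[F] ↥(Vn u)) where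
  toFun g :=
    { toFun := fun w => ⟨(g : V ≃ₗ[F] V) w, cen_Vn g.2 w.2⟩
      map_add' := fun a b => Subtype.ext (map_add _ _ _)
      map_smul' := fun c a => Subtype.ext (map_smul _ _ _)
      invFun := fun w => ⟨(g : V ≃ₗ[F] V)⁻¹ w, cen_Vn (inv_mem g.2) w.2⟩
      left_inv := fun w => Subtype.ext (LinearEquiv.symm_apply_apply (g : V ≃ₗ[F] V) w)
      right_inv := fun w => Subtype.ext (LinearEquiv.apply_symm_apply (g : V ≃ₗ[F] V) w) }
  map_one' := rfl
  map_mul' _ _ := rfl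

theorem resW_apply (u : V ≃ₗ[F] V) (g : ↥(centralizer ({u} : Set (V ≃ₗ[F] V)))) (w : ↥(Vn u)) :
    (resW u g w : V) = (g : V ≃ₗ[F] V) w := rfl

section ext

variable (two : (2 : F) ≠ 0) {u : V ≃ₗ[F] V} (hu : u * u = 1)

/-- the projection on `Vn u` -/
def pW : V →ₗ[F] ↥(Vn u) :=
  LinearMap.codRestrict (Vn u) ((2 : F)⁻¹ • (LinearMap.id - (u : V →ₗ[F] V))) fun v => by
    have huu : u (u v) = v := LinearEquiv.congr_fun hu v
    change u ((2 : F)⁻¹ • (v - u v)) = -((2 : F)⁻¹ • (v - u v))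
    rw [map_smul, map_sub, huu, ← smul_neg, neg_sub]

include two in
theorem pW_mem (w : ↥(Vn u)) : pW hu (w : V) = w := by
  apply Subtype.ext
  change (2 : F)⁻¹ • ((w : V) - u w) = w
  rw [mem_Vn.1 w.2, sub_neg_eq_add, ← two_smul F, smul_smul, inv_mul_cancel₀ two, one_smul]

theorem pW_fix {v : V} (hv : u v = v) : pW hu v = 0 := by
  apply Subtype.ext
  change (2 : F)⁻¹ • (v - u v) = 0
  rw [hv, sub_self, smul_zero]

/-- extension by one, a function -/
def extF (t : ↥(Vn u) ≃ₗ[F] ↥(Vn u)) (v : V) : V := v + ((t (pW hu v) : V) - (pW hu v : V))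

include two in
theorem extF_mul (t t' : ↥(Vn u) ≃ₗ[F] ↥(Vn u)) (v : V) : extF hu t (extF hu t' v) = extF hu (t * t') v := by
  have h1 : pW hu (extF hu t' v) = t' (pW hu v) := by
    rw [extF, map_add, map_sub, pW_mem two hu, pW_mem two hu]
    abel
  have h2 : extF hu t (extF hu t' v) = extF hu t' v + ((t (pW hu (extF hu t' v)) : V) -
      (pW hu (extF hu t' v) : V)) := rfl
  rw [h2, h1, extF, extF]
  change _ = v + ((t (t' (pW hu v)) : V) - _)
  abel

theorem extF_one (v : V) : extF hu 1 v = v := by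
  change v + (((pW hu v : ↥(Vn u)) : V) - _) = v
  rw [sub_self, add_zero]

/-- extension by one -/
def extW : (↥(Vn u) ≃ₗ[F] ↥(Vn u)) →* (V ≃ₗ[F] V) where
  toFun t :=
    { toFun := extF hu t
      map_add' := fun a b => by
        rw [extF, extF, extF, map_add, map_add, Submodule.coe_add, Submodule.coe_add]; abel
      map_smul' := fun c a => by
        rw [extF, extF, map_smul, map_smul, Submodule.coe_smul, Submodule.coe_smul, RingHom.id_apply, smul_add,
          smul_sub]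
      invFun := extF hu t⁻¹
      left_inv := fun v => by rw [extF_mul two hu, inv_mul_cancel, extF_one hu]
      right_inv := fun v => by rw [extF_mul two hu, mul_inv_cancel, extF_one hu] }
  map_one' := LinearEquiv.ext fun v => extF_one hu v
  map_mul' t t' := LinearEquiv.ext fun v => (extF_mul two hu t t' v).symm

theorem extW_mem (t : ↥(Vn u) ≃ₗ[F] ↥(Vn u)) (w : ↥(Vn u)) : extW two hu t (w : V) = t w := by
  change (w : V) + ((t (pW hu (w : V)) : V) - (pW hu (w : V) : V)) = _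
  rw [pW_mem two hu]; abel

theorem extW_fix (t : ↥(Vn u) ≃ₗ[F] ↥(Vn u)) {v : V} (hv : u v = v) : extW two hu t v = v := by
  change v + ((t (pW hu v) : V) - (pW hu v : V)) = _
  rw [pW_fix hu hv, map_zero, sub_self, add_zero]

/-- the form on `Vn u` -/
def hW (Q : QuadraticForm F V) (u : V ≃ₗ[F] V) : LinearMap.BilinForm F ↥(Vn u) :=
  polarBilin (Q.comp (Vn u).subtype)

theorem hW_apply (a b : ↥(Vn u)) : hW Q u a b = polar Q (a : V) b := rfl

theorem extW_mem_O (huO : u ∈ O Q) {t : ↥(Vn u) ≃ₗ[F] ↥(Vn u)} (ht : t ∈ isomsL (hW Q u)) : extW two hu t ∈ O Q := by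
  intro v
  obtain ⟨a, b, rfl, ha, hb⟩ := half_decomp two hu v
  have h1 : extW two hu t b = (t ⟨b, hb⟩ : V) := extW_mem two hu t ⟨b, hb⟩
  have h2 : Q (t ⟨b, hb⟩ : V) = Q b := by
    have h3 := ht ⟨b, hb⟩ ⟨b, hb⟩
    rw [hW_apply, hW_apply, polar_self', polar_self'] at h3
    exact mul_left_cancel₀ two h3
  rw [map_add, extW_fix two hu t ha, h1, Q_add, Q_add, h2, perp_half two huO ha hb,
    perp_half two huO ha (t ⟨b, hb⟩).2]

theorem extW_mem_E (hG : Good Q) (huO : u ∈ O Q) {t : ↥(Vn u) ≃ₗ[F] ↥(Vn u)}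
    (ht : t ∈ ⁅isomsL (hW Q u), isomsL (hW Q u)⁆) : extW two hu t ∈ E Q := by
  have h1 : (⁅isomsL (hW Q u), isomsL (hW Q u)⁆).map (extW two hu) ≤ E Q := by
    rw [Subgroup.map_commutator, ← hG.commutator_eq_E]
    refine Subgroup.commutator_mono ?_ ?_ <;>
    · rintro _ ⟨y, hy, rfl⟩
      exact extW_mem_O two hu huO hy
  exact h1 ⟨t, ht, rfl⟩

end ext

theorem pow_fix {g : V ≃ₗ[F] V} {v : V} (hgv : g v = v) (i : ℕ) : (g ^ i) v = v := by
  induction i with
  | zero => rfl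
  | succ i ih => rw [pow_succ]; change (g ^ i) (g v) = v; rw [hgv, ih]

theorem pow_neg_fix {g : V ≃ₗ[F] V} {v : V} (hgv : g v = -v) (i : ℕ) : (g ^ i) v = (-1 : F) ^ i • v := by
  induction i with
  | zero => simp
  | succ i ih => rw [pow_succ]; change (g ^ i) (g v) = _; rw [hgv, map_neg, ih, pow_succ, mul_neg, mul_one, neg_smul]

theorem even_of_fix (two : (2 : F) ≠ 0) {v : V} (hv : v ≠ 0) {i : ℕ} (hi : (-1 : F) ^ i • v = v) : Even i := by
  rcases Nat.even_or_odd i with he | ho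
  · exact he
  · exfalso
    rw [ho.neg_one_pow, neg_smul, one_smul] at hi
    have h3 : (2 : F) • v = 0 := by
      rw [two_smul]; nth_rewrite 1 [← hi]; rw [neg_add_cancel]
    exact hv ((smul_eq_zero.1 h3).resolve_left two)

end lin

variable {G : Type*} [Group G]
variable {N0 A Ek : Subgroup G} {z s x r : G} {ψ : ↥A →* Equiv.Perm (Fin 6)}
variable {F V : Type*} [Field F] [AddCommGroup V] [Module F V] {Q : QuadraticForm F V} {π : ↥(E Q) →* G}
  {Nh Eh : Subgroup (V ≃ₗ[F] V)} {zh sh xh rh : V ≃ₗ[F] V}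

/-- **section 2, step (2)** -/
theorem step_two [Finite G] [Finite F] [FiniteDimensional F V] (hG : Good Q) (two : (2 : F) ≠ 0)
    (T : Kit N0 A Ek z s x r ψ) (L : Lin (E Q) π) (l : LKit (E Q) π N0 A Ek z s x r Nh Eh zh sh xh rh) :
    Sit Q π N0 A Ek z s x r ψ Nh Eh zh sh xh rh ∧ (∀ e ∈ Eh, ∀ v, sh (sh v) = -v → e v = v) ∧
      ∃ v w : V, ∀ b, sh (sh b) = -b → ∃ x y : F, b = x • v + y • w := by
  obtain ⟨c, hc, hz, hu, ⟨a0, ha0, haa, hQa⟩, ⟨b0, hb0, hbb⟩⟩ := s_facts hG two l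
  have hsN := sN_comm hG two T L l
  have hc2 : c * c = 1 := by rcases hc with rfl | rfl <;> ring
  set u := sh * sh with hudef
  have hsO : sh ∈ O Q := E_le_O (l.Nh_le l.sN)
  have huO : u ∈ O Q := mul_mem hsO hsO
  have hs : ∀ {g : V ≃ₗ[F] V}, g * sh = sh * g → g ∈ centralizer ({u} : Set (V ≃ₗ[F] V)) := by
    intro g hg
    rw [mem_centralizer_singleton_iff, hudef, ← mul_assoc, hg, mul_assoc, hg, mul_assoc]
  have hNC : Nh ≤ centralizer ({u} : Set (V ≃ₗ[F] V)) := fun n hn => hs (hsN n hn)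
  have hEC : Eh ≤ centralizer ({u} : Set (V ≃ₗ[F] V)) := fun e he => hs (l.Eh_comm e he sh l.sN)
  let C := centralizer ({u} : Set (V ≃ₗ[F] V))
  let NN : Subgroup (↥(Vn u) ≃ₗ[F] ↥(Vn u)) := (Nh.subgroupOf C).map (resW u)
  let EE : Subgroup (↥(Vn u) ≃ₗ[F] ↥(Vn u)) := (Eh.subgroupOf C).map (resW u)
  have hfinV : Finite V := Module.finite_of_finite F
  have hNT : Nontrivial ↥(Vn u) := ⟨⟨⟨b0, hbb⟩, 0, fun h => hb0 (congrArg Subtype.val h)⟩⟩
  have hmemN : ∀ n (hn : n ∈ Nh), resW u ⟨n, hNC hn⟩ ∈ NN := fun n hn =>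
    ⟨⟨n, hNC hn⟩, mem_subgroupOf.2 hn, rfl⟩
  have hmemE : ∀ e (he : e ∈ Eh), resW u ⟨e, hEC he⟩ ∈ EE := fun e he =>
    ⟨⟨e, hEC he⟩, mem_subgroupOf.2 he, rfl⟩
  have hnd : ∀ a : ↥(Vn u), (∀ b, hW Q u a b = 0) → a = 0 := by
    intro a ha
    apply Subtype.ext
    apply hG.nondeg
    intro w
    obtain ⟨a', b', rfl, ha', hb'⟩ := half_decomp two hu w
    rw [polar_add_right, polar_comm Q (a : V) a', perp_half two huO ha' a.2, zero_add]
    exact ha ⟨b', hb'⟩
  -- a nonsingular vector of `Vc`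
  obtain ⟨b1, hb1⟩ : ∃ b : ↥(Vn u), Q (b : V) ≠ 0 := by
    by_contra hcon
    push Not at hcon
    have h1 : (⟨b0, hbb⟩ : ↥(Vn u)) = 0 := hnd _ fun b => by
      rw [hW_apply, QuadraticMap.polar, hcon, hcon, show (⟨b0, hbb⟩ : ↥(Vn u)).1 + b.1 = (⟨b0, hbb⟩ + b : ↥(Vn u)).1 from rfl,
        hcon]
      ring
    exact hb0 (congrArg Subtype.val h1)
  have hzc : ∀ b, u b = -b → zh b = -c • b := fun b hb => by
    have hb' : sh (sh b) = -b := hb
    rw [hz, hb', smul_neg, neg_smul]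
  have hcne : c ≠ 0 := fun h => by rw [h, mul_zero] at hc2; exact zero_ne_one hc2
  have D : DatL (hW Q u) NN (resW u ⟨sh, hNC l.sN⟩) := by
    refine ⟨two, fun a b => polar_comm _ _ _, hnd, ?_, hmemN sh l.sN, fun w => Subtype.ext w.2, ?_, ?_, ?_⟩
    · rintro _ ⟨n, hn, rfl⟩ a b
      exact polar_map (E_le_O (l.Nh_le (mem_subgroupOf.1 hn))) _ _
    · rintro _ ⟨n, hn, rfl⟩
      have hn' := mem_subgroupOf.1 hn
      obtain ⟨δ, hδ⟩ : ∃ δ : F, ∀ b, u b = -b → (n : V ≃ₗ[F] V) ((n : V ≃ₗ[F] V) b) = δ • b := by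
        obtain ⟨c1, -, h | h⟩ := l.sq n hn'
        · exact ⟨c1, fun b _ => h b⟩
        · refine ⟨c1 * (-c), fun b hb => ?_⟩
          have h1 : (n : V ≃ₗ[F] V) ((n : V ≃ₗ[F] V) b) = c1 • zh b := h b
          rw [h1, hzc b hb, smul_smul]
      have hδ2 : δ * δ = 1 := by
        have h1 := congrArg Q (hδ b1 b1.2)
        have hnO : ∀ w, Q ((n : V ≃ₗ[F] V) w) = Q w := fun w => mem_O.1 (E_le_O (l.Nh_le hn')) w
        change Q ((n : V ≃ₗ[F] V) ((n : V ≃ₗ[F] V) b1)) = Q (δ • (b1 : V)) at h1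
        rw [hnO, hnO, QuadraticMap.map_smul, smul_eq_mul] at h1
        have h2 : (δ * δ - 1) * Q (b1 : V) = 0 := by linear_combination -h1
        exact sub_eq_zero.1 ((mul_eq_zero.1 h2).resolve_right hb1)
      have h4 : (δ - 1) * (δ + 1) = 0 := by linear_combination hδ2
      rcases mul_eq_zero.1 h4 with h5 | h5
      · left
        intro w
        apply Subtype.ext
        change (n : V ≃ₗ[F] V) ((n : V ≃ₗ[F] V) w) = w
        rw [hδ w w.2, sub_eq_zero.1 h5, one_smul]
      · right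
        intro w
        apply Subtype.ext
        change (n : V ≃ₗ[F] V) ((n : V ≃ₗ[F] V) w) = -(w : V)
        rw [hδ w w.2, eq_neg_of_add_eq_zero_left h5, neg_smul, one_smul]
    · rintro _ ⟨n, hn, rfl⟩ _ ⟨m, hm, rfl⟩
      have hn' := mem_subgroupOf.1 hn
      have hm' := mem_subgroupOf.1 hm
      obtain ⟨γ, hγ1, hγ⟩ : ∃ γ : F, (γ = 1 ∨ γ = -1) ∧ ∀ b, u b = -b →
          (n : V ≃ₗ[F] V) ((m : V ≃ₗ[F] V) b) = γ • (m : V ≃ₗ[F] V) ((n : V ≃ₗ[F] V) b) := by
        obtain ⟨c5, hc5, h | h⟩ := l.comm n hn' m hm'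
        · exact ⟨c5, hc5, fun b _ => h b⟩
        · refine ⟨c5 * (-c), ?_, fun b hb => ?_⟩
          · rcases hc5 with rfl | rfl <;> rcases hc with rfl | rfl <;> simp
          · have h1 : (n : V ≃ₗ[F] V) ((m : V ≃ₗ[F] V) b) = c5 • zh ((m : V ≃ₗ[F] V) ((n : V ≃ₗ[F] V) b)) := h b
            rw [h1, hzc _ (cen_Vn m.2 (cen_Vn n.2 hb)), smul_smul]
      rcases hγ1 with h1 | h1
      · left
        intro w
        apply Subtype.ext
        change (n : V ≃ₗ[F] V) ((m : V ≃ₗ[F] V) w) = (m : V ≃ₗ[F] V) ((n : V ≃ₗ[F] V) w)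
        rw [hγ w w.2, h1, one_smul]
      · right
        intro w
        apply Subtype.ext
        change (n : V ≃ₗ[F] V) ((m : V ≃ₗ[F] V) w) = -(m : V ≃ₗ[F] V) ((n : V ≃ₗ[F] V) w)
        rw [hγ w w.2, h1, neg_smul, one_smul]
    · rintro _ ⟨n, hn, rfl⟩ w
      apply Subtype.ext
      exact LinearEquiv.congr_fun (hsN n (mem_subgroupOf.1 hn)) w
  have hpE : ⁅Eh.subgroupOf C, Eh.subgroupOf C⁆ = Eh.subgroupOf C := by
    refine Subgroup.map_injective C.subtype_injective ?_
    rw [Subgroup.map_commutator, Subgroup.map_subgroupOf_eq_of_le hEC, l.Eh_perf]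
  have hEEp : ⁅EE, EE⁆ = EE := by
    change ⁅(Eh.subgroupOf C).map (resW u), (Eh.subgroupOf C).map (resW u)⁆ = _
    rw [← Subgroup.map_commutator, hpE]
  have hEiso : ∀ g ∈ EE, ∀ a b, hW Q u (g a) (g b) = hW Q u a b := by
    rintro _ ⟨e, he, rfl⟩ a b
    exact polar_map (E_le_O (l.Eh_le (mem_subgroupOf.1 he))) _ _
  have hEN : ∀ g ∈ EE, ∀ n ∈ NN, n * g = g * n := by
    rintro _ ⟨e, he, rfl⟩ _ ⟨n, hn, rfl⟩
    rw [← map_mul, ← map_mul]
    congr 1
    exact Subtype.ext (l.Eh_comm e (mem_subgroupOf.1 he) n (mem_subgroupOf.1 hn)).symm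
  -- extensions commute with `Nh` if they do on `Vc`
  have hext : ∀ (t : ↥(Vn u) ≃ₗ[F] ↥(Vn u)) (m : V ≃ₗ[F] V) (hm : m ∈ C),
      t * resW u ⟨m, hm⟩ = resW u ⟨m, hm⟩ * t → extW two hu t * m = m * extW two hu t := by
    intro t m hm h
    apply LinearEquiv.ext
    intro v
    obtain ⟨a, b, rfl, ha, hb⟩ := half_decomp two hu v
    change extW two hu t (m (a + b)) = m (extW two hu t (a + b))
    have h1 : u (m a) = m a := by rw [cen_apply hm, ha]
    have h2 : extW two hu t (m b) = m (extW two hu t b) := by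
      have e1 : extW two hu t (m b) = (t ⟨m b, cen_Vn hm hb⟩ : V) := extW_mem two hu t ⟨m b, cen_Vn hm hb⟩
      have e2 : extW two hu t b = (t ⟨b, hb⟩ : V) := extW_mem two hu t ⟨b, hb⟩
      rw [e1, e2]
      exact congrArg Subtype.val (LinearEquiv.congr_fun h ⟨b, hb⟩)
    rw [map_add, map_add, map_add, map_add, extW_fix two hu t h1, extW_fix two hu t ha, h2]
  rcases structureL_sym D hEEp hEiso hEN with ⟨v, j, h3⟩ | ⟨t, ht⟩
  · -- three planes: `T5`
    exfalso
    let X : Fin 3 → (V ≃ₗ[F] V) := fun k => extW two hu (j k)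
    have hXE : ∀ k i, X k * X i ∈ E Q := fun k i => by
      change extW two hu (j k) * extW two hu (j i) ∈ E Q
      rw [← map_mul]
      exact extW_mem_E two hu hG huO (h3.mem2 k i)
    have hXN : ∀ k, ∀ n ∈ Nh, X k * n = n * X k := fun k n hn =>
      hext (j k) n (hNC hn) (h3.nn k _ (hmemN n hn)).symm
    have hXX : ∀ k i, X k * X i = X i * X k := fun k i => by
      change extW two hu (j k) * extW two hu (j i) = extW two hu (j i) * extW two hu (j k)
      rw [← map_mul, ← map_mul, h3.comm]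
    have hX4 : ∀ k, X k ^ 4 = 1 := fun k => by
      change (extW two hu (j k)) ^ 4 = 1
      rw [← map_pow, h3.four, map_one]
    have hXr : ∀ k a, u a = a → X k a = a := fun k a ha => extW_fix two hu (j k) ha
    have hXv : ∀ k i, k ≠ i → X k (v i) = v i := fun k i hki => by
      have := extW_mem two hu (j k) (v i)
      rw [h3.other k i hki] at this
      exact this
    have hJ : ∀ w : ↥(Vn u), ((resW u ⟨sh, hNC l.sN⟩ w : ↥(Vn u)) : V) = sh w := fun w => rfl
    have hXJ : ∀ k i, k ≠ i → X k (sh (v i)) = sh (v i) := fun k i hki => by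
      have := extW_mem two hu (j k) (resW u ⟨sh, hNC l.sN⟩ (v i))
      rw [h3.otherJ k i hki] at this
      exact this
    have hXs : ∀ k, X k (v k) = sh (v k) := fun k => by
      have := extW_mem two hu (j k) (v k)
      rw [h3.self k] at this
      exact this
    have hXsJ : ∀ k, X k (sh (v k)) = -(v k : V) := fun k => by
      have := extW_mem two hu (j k) (resW u ⟨sh, hNC l.sN⟩ (v k))
      rw [h3.selfJ k] at this
      exact this
    have hv0 : ∀ k, (v k : V) ≠ 0 := fun k h => by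
      have h1 := h3.norm k
      rw [hW_apply, h, polar_zero_left] at h1
      exact zero_ne_one h1
    have hmC : ∀ k i, ∀ n ∈ N0, π ⟨X k * X i, hXE k i⟩ * n = n * π ⟨X k * X i, hXE k i⟩ := fun k i =>
      l.mem_C L (hXE k i) fun n hn => ⟨1, fun w => by
        rw [one_smul, mul_assoc, hXN i n hn, ← mul_assoc, hXN k n hn, mul_assoc]⟩
    have hsE := l.Nh_le l.sN
    have h01 : X 0 * X 1 * (X 0 * X 0) = X 0 * X 0 * (X 0 * X 1) := by
      rw [mul_assoc, ← mul_assoc (X 1), hXX 1 0, mul_assoc (X 0) (X 1), hXX 1 0, ← mul_assoc, mul_assoc (X 0) (X 0)]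
    refine T.T5 (a := π ⟨X 0 * X 1, hXE 0 1⟩) (b := π ⟨X 0 * X 0, hXE 0 0⟩) (hmC 0 1) (hmC 0 0) ?_ ?_ ?_ ?_
    · have h02 := congrArg π (show (⟨X 0 * X 1, hXE 0 1⟩ * ⟨X 0 * X 0, hXE 0 0⟩ : E Q) =
        ⟨X 0 * X 0, hXE 0 0⟩ * ⟨X 0 * X 1, hXE 0 1⟩ from Subtype.ext h01)
      exact (map_mul π _ _).symm.trans (h02.trans (map_mul π _ _))
    · rw [← map_pow, ← map_one π]
      refine congrArg π (Subtype.ext ?_)
      change (X 0 * X 1) ^ 4 = 1
      rw [(show Commute (X 0) (X 1) from hXX 0 1).mul_pow, hX4, hX4, one_mul]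
    · rw [← map_pow, ← map_one π]
      refine congrArg π (Subtype.ext ?_)
      change (X 0 * X 0) ^ 2 = 1
      rw [← pow_two, ← pow_mul, hX4]
    · intro i k hik
      obtain ⟨t, ht⟩ := mem_powers_iff_mem_zpowers.2 hik
      have ht0 : s ^ t = π ⟨X 0 * X 1, hXE 0 1⟩ ^ i * π ⟨X 0 * X 0, hXE 0 0⟩ ^ k := ht
      obtain ⟨d, hd0, hd⟩ := L.smul_of_eq (g := ⟨X 0 * X 1, hXE 0 1⟩ ^ i * ⟨X 0 * X 0, hXE 0 0⟩ ^ k)
        (h := ⟨sh, hsE⟩ ^ t) (by rw [map_mul, map_pow, map_pow, map_pow, l.pi_s hsE, ht0])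
      have hR : ∀ w, ((X 0 * X 1) ^ i) (((X 0 * X 0) ^ k) w) = d • (sh ^ t) w := hd
      have f01 : ∀ w, X 0 w = w → X 1 w = w → ((X 0 * X 1) ^ i) (((X 0 * X 0) ^ k) w) = w := by
        intro w h0 h1
        have e1 : (X 0 * X 0) w = w := by change X 0 (X 0 w) = w; rw [h0, h0]
        have e2 : (X 0 * X 1) w = w := by change X 0 (X 1 w) = w; rw [h1, h0]
        rw [pow_fix e1, pow_fix e2]
      have g1 := hR a0
      have g2 := hR (v 2)
      rw [f01 a0 (hXr 0 a0 haa) (hXr 1 a0 haa)] at g1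
      rw [f01 (v 2) (hXv 0 2 (by decide)) (hXv 1 2 (by decide))] at g2
      have hsq : ∀ w, (sh ^ t) ((sh ^ t) w) = (u ^ t) w := fun w => by
        rw [hudef, (Commute.refl sh).mul_pow]; rfl
      have k1 : (d * d) • a0 = a0 := by
        have h2 : d • (sh ^ t) (d • (sh ^ t) a0) = a0 := by rw [← g1, ← g1]
        rw [map_smul, hsq, pow_fix (show u a0 = a0 from haa), smul_smul] at h2
        exact h2
      have k2 : (d * d) • ((-1 : F) ^ t • (v 2 : V)) = v 2 := by
        have h2 : d • (sh ^ t) (d • (sh ^ t) (v 2 : V)) = v 2 := by rw [← g2, ← g2]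
        rw [map_smul, hsq, pow_neg_fix (v 2).2, smul_smul] at h2
        exact h2
      have k3 : d * d = 1 := by
        have h3 : (d * d - 1) • a0 = 0 := by rw [sub_smul, k1, one_smul, sub_self]
        exact sub_eq_zero.1 ((smul_eq_zero.1 h3).resolve_right ha0)
      rw [k3, one_smul] at k2
      obtain ⟨t', rfl⟩ := even_of_fix two (hv0 2) k2
      have hst : ∀ w, (sh ^ (t' + t')) w = (u ^ t') w := fun w => by
        rw [hudef, (Commute.refl sh).mul_pow, pow_add]
      rw [hst, pow_fix (show u a0 = a0 from haa)] at g1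
      have k4 : d = 1 := by
        have h3 : (d - 1) • a0 = 0 := by rw [sub_smul, ← g1, one_smul, sub_self]
        exact sub_eq_zero.1 ((smul_eq_zero.1 h3).resolve_right ha0)
      rw [hst, pow_neg_fix (v 2).2, k4, one_smul] at g2
      obtain ⟨t'', rfl⟩ := even_of_fix two (hv0 2) g2.symm
      have hR1 : ∀ w, ((X 0 * X 1) ^ i) (((X 0 * X 0) ^ k) w) = w := by
        intro w
        have e1 : u ^ (t'' + t'') = 1 := by rw [← two_mul, pow_mul, pow_two, hu, one_pow]
        rw [hR, hst, k4, one_smul, e1]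
        rfl
      -- on `v 1`
      have hZ1 : (X 0 * X 1) (v 1 : V) = sh (v 1) := by
        change X 0 (X 1 (v 1 : V)) = _
        rw [hXs, hXJ 0 1 (by decide)]
      have hZ2 : (X 0 * X 1) (sh (v 1 : V)) = -(v 1 : V) := by
        change X 0 (X 1 (sh (v 1 : V))) = _
        rw [hXsJ, map_neg, hXv 0 1 (by decide)]
      have hY1 : ((X 0 * X 0) ^ k) (v 1 : V) = v 1 := by
        refine pow_fix ?_ k
        change X 0 (X 0 (v 1 : V)) = _
        rw [hXv 0 1 (by decide), hXv 0 1 (by decide)]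
      have hi := hR1 (v 1)
      rw [hY1] at hi
      have hZ4 : (X 0 * X 1) ^ 4 = 1 := by
        rw [(show Commute (X 0) (X 1) from hXX 0 1).mul_pow, hX4, hX4, one_mul]
      have hv1 : ∀ w : V, w ≠ 0 → w ≠ -w := by
        intro w hw h
        have h5 : (2 : F) • w = 0 := by
          rw [two_smul]; nth_rewrite 1 [h]; rw [neg_add_cancel]
        exact hw ((smul_eq_zero.1 h5).resolve_left two)
      have hsv : sh (sh (v 1 : V)) = -(v 1 : V) := (v 1).2
      have h4i : 4 ∣ i := by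
        rw [← Nat.div_add_mod i 4, pow_add, pow_mul, hZ4, one_pow, one_mul] at hi
        have hlt := Nat.mod_lt i (show 0 < 4 by norm_num)
        rw [Nat.dvd_iff_mod_eq_zero]
        by_contra hne
        obtain h | h | h : i % 4 = 1 ∨ i % 4 = 2 ∨ i % 4 = 3 := by omega
        · rw [h, pow_one, hZ1] at hi
          rw [hi, hi] at hsv
          exact hv1 _ (hv0 1) hsv
        · rw [h, pow_two] at hi
          change (X 0 * X 1) ((X 0 * X 1) (v 1 : V)) = _ at hi
          rw [hZ1, hZ2] at hi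
          exact hv1 _ (hv0 1) hi.symm
        · rw [h, pow_succ, pow_two] at hi
          change (X 0 * X 1) ((X 0 * X 1) ((X 0 * X 1) (v 1 : V))) = _ at hi
          rw [hZ1, hZ2, map_neg, hZ1] at hi
          have h5 : sh (v 1 : V) = -(v 1 : V) := neg_eq_iff_eq_neg.1 hi
          rw [h5, map_neg, h5, neg_neg] at hsv
          exact hv1 _ (hv0 1) hsv
      refine ⟨h4i, ?_⟩
      -- on `v 0`
      obtain ⟨i', rfl⟩ := h4i
      have h0 := hR1 (v 0)
      rw [pow_mul, hZ4, one_pow] at h0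
      have e1 : (X 0 * X 0) (v 0 : V) = -(v 0 : V) := by
        change X 0 (X 0 (v 0 : V)) = _
        rw [hXs, hXsJ]
      have e2 : ((X 0 * X 0) ^ k) (v 0 : V) = v 0 := h0
      rw [pow_neg_fix e1] at e2
      exact (even_of_fix two (hv0 0) e2).two_dvd
  · rcases ht.mem with hm | ⟨hcomm, hEE, v, hv, hspan⟩
    · -- `T1`
      exfalso
      have hτE : extW two hu t ∈ E Q := extW_mem_E two hu hG huO hm
      have hτr : ∀ a, u a = a → extW two hu t a = a := fun a ha => extW_fix two hu t ha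
      have hτc : ∀ b (hb : u b = -b), extW two hu t b = (t ⟨b, hb⟩ : V) := fun b hb => extW_mem two hu t ⟨b, hb⟩
      have hT := l.T1 T L (g := extW two hu t) hτE ?_ ?_
      · obtain ⟨c4, -, h4⟩ := hT
        have h4' : ∀ v, extW two hu t (sh v) = c4 • sh (extW two hu t v) := h4
        have husa : u (sh a0) = sh a0 := by
          change sh (sh (sh a0)) = sh a0
          rw [haa]
        have h5 := h4' a0
        rw [hτr a0 haa, hτr _ husa] at h5
        have h6 : (1 - c4) • sh a0 = 0 := by rw [sub_smul, one_smul, ← h5, sub_self]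
        have h7 : c4 = 1 := by
          rcases smul_eq_zero.1 h6 with h8 | h8
          · exact (sub_eq_zero.1 h8).symm
          · exact absurd (sh.map_eq_zero_iff.1 h8) ha0
        have h8 := h4' b0
        have husb : u (sh b0) = - sh b0 := by
          change sh (sh (sh b0)) = -sh b0
          rw [hbb, map_neg]
        have h9 : (t ⟨sh b0, husb⟩ : V) = - sh (t ⟨b0, hbb⟩ : V) := congrArg Subtype.val (ht.antiJ ⟨b0, hbb⟩)
        rw [hτc b0 hbb, hτc _ husb, h9, h7, one_smul] at h8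
        have h10 : (2 : F) • sh (t ⟨b0, hbb⟩ : V) = 0 := by
          rw [two_smul]; nth_rewrite 1 [← h8]; rw [neg_add_cancel]
        have h11 : (t ⟨b0, hbb⟩ : V) = 0 := sh.map_eq_zero_iff.1 ((smul_eq_zero.1 h10).resolve_left two)
        have h12 : t ⟨b0, hbb⟩ = 0 := Subtype.ext h11
        exact hb0 (congrArg Subtype.val (t.map_eq_zero_iff.1 h12))
      · intro m hm'
        have hmC := hNC hm'
        rcases ht.nn _ (hmemN m hm') with h | h
        · refine ⟨1, Or.inl fun v => ?_⟩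
          rw [one_smul]
          exact LinearEquiv.congr_fun (hext t m hmC (LinearEquiv.ext h)) v
        · refine ⟨c, Or.inr fun v => ?_⟩
          obtain ⟨a, b, rfl, ha, hb⟩ := half_decomp two hu v
          change extW two hu t (m (a + b)) = c • zh (m (extW two hu t (a + b)))
          have h1 : u (m a) = m a := by rw [cen_apply hmC, ha]
          have h2 : u (m b) = - m b := by rw [cen_apply hmC, hb, map_neg]
          have h3 : (t ⟨m b, h2⟩ : V) = - m (t ⟨b, hb⟩ : V) := congrArg Subtype.val (h ⟨b, hb⟩)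
          have h4 : u (m (t ⟨b, hb⟩ : V)) = - m (t ⟨b, hb⟩ : V) := by
            rw [cen_apply hmC, mem_Vn.1 (t ⟨b, hb⟩).2, map_neg]
          have h1' : sh (sh (m a)) = m a := h1
          rw [map_add, map_add, map_add, map_add, map_add, hτr a ha, hτr _ h1, hτc b hb, hτc _ h2, h3, hzc _ h4, hz,
            h1', smul_add, smul_smul, smul_smul, hc2, mul_neg, hc2, one_smul, neg_smul, one_smul]
      · intro e he
        refine ⟨1, fun v => ?_⟩
        rw [one_smul]
        exact LinearEquiv.congr_fun (hext t e (hEC he) (ht.ee _ (hmemE e he)).symm) v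
    · refine ⟨⟨hG, two, T, L, l, hsN, ⟨b0, hb0, hbb⟩, ?_⟩, ?_, v, sh v, ?_⟩
      · intro n hn m hm w hw
        have h1 := hcomm _ (hmemN n hn) _ (hmemN m hm)
        exact congrArg Subtype.val (LinearEquiv.congr_fun h1 ⟨w, hw⟩)
      · intro e he w hw
        have h1 : resW u ⟨e, hEC he⟩ = 1 := by
          have := hmemE e he
          rw [hEE] at this
          exact this
        exact congrArg Subtype.val (LinearEquiv.congr_fun h1 ⟨w, hw⟩)
      · intro b hb
        obtain ⟨x, y, hxy⟩ := hspan ⟨b, hb⟩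
        exact ⟨x, y, congrArg Subtype.val hxy⟩

end Cfsg.Agent.H100.C3
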