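import Cfsg.Agent.H100.C3.Trans
import Cfsg.Agent.H100.C3.StepTwo
import Cfsg.Agent.H100.C3.ArfThree
import Cfsg.Agent.H14.C3.SecFive
import Cfsg.Agent.H415.C3.KitOf
import Cfsg.Agent.H527.Co3.Asm
import Cfsg.Prelude.Def_LieTypeChar

/-!
# S1920, case B: the rows `PΩ_{2m+1}(F)`, `PΩ⁺_{2m}(F)`, `PΩ⁻_{2m}(F)` (helper100)
-/

set_option autoImplicit false

open Subgroup Module

namespace Cfsg.Agent.H100.C3

open QuadraticMap Cfsg.Agent.H415.C3 Cfsg.Agent.LieClassical.OrthCore Cfsg.Agent.LieClassical.OrthTrans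
open Cfsg.Agent.AutOrth.Main (good_plus good_minus good_odd)
open Cfsg.Agent.LieClassical.QuadForms (plusForm minusForm oddForm coe_plusForm coe_minusForm coe_oddForm)
open Cfsg.Agent.H13.Co3 (CB)

/-- **A simple orthogonal group in odd characteristic has no configuration `CB`.** -/
theorem false_of_lin {G : Type*} [Group G] [Finite G] {F : Type*} [Field F] [Finite F] {ι : Type*} [Finite ι]
    {Q : QuadraticForm F (ι → F)} {π : ↥(E Q) →* G} (hG : Good Q) (L : Lin (E Q) π) (h2 : (2 : F) ≠ 0)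
    {P N0 : Subgroup G} {z s : G} {ψ : ↥(normalizer (P : Set G)) →* Equiv.Perm (Fin 6)} (C : CB P N0 z s ψ) :
    False := by
  obtain ⟨A, Ek, x, r, φ, T⟩ := exists_kit C
  have hVV : Finite ((ι → F) ≃ₗ[F] (ι → F)) :=
    Finite.of_injective (fun f : (ι → F) ≃ₗ[F] (ι → F) => (f : (ι → F) → (ι → F))) DFunLike.coe_injective
  obtain ⟨Nh, Eh, zh, sh, xh, rh, l⟩ := exists_lkit L h2 T
  obtain ⟨S, hE, -⟩ := step_two hG h2 T L l
  exact Cfsg.Agent.H14.C3.sec_five_aux S hE fun ε n1 n2 m1 m2 B => arf_zero S B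

theorem false_of_pomega {ι : Type} [Fintype ι] [DecidableEq ι] {F : Type*} [Field F] [Finite F]
    {Q : QuadraticForm F (ι → F)} (hG : Good Q) {f : (ι → F) → F} (h : ⇑Q = f) {G : Type*} [Group G] [Finite G]
    (e : G ≃* Cfsg.POmega F f) (h2 : (2 : F) ≠ 0)
    {P N0 : Subgroup G} {z s : G} {ψ : ↥(normalizer (P : Set G)) →* Equiv.Perm (Fin 6)} (C : CB P N0 z s ψ) :
    False := by
  obtain ⟨π, L⟩ := lin_pomega hG h e
  exact false_of_lin hG L h2 C

universe u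

/-- **The row `IsPOmegaOdd`** -/
theorem row_odd : Cfsg.Agent.H527.Co3.Row.{u} @Cfsg.IsPOmegaOdd := by
  intro G _ _ _ hG P N0 z s ψ C
  obtain ⟨F, i1, i2, m, hm, hodd, ⟨e⟩⟩ := hG
  have h2 : (2 : F) ≠ 0 := by
    intro h2
    have h3 := FiniteField.even_card_of_char_two (F := F)
      (CharP.ringChar_of_prime_eq_zero Nat.prime_two (by exact_mod_cast h2))
    rw [Nat.odd_iff] at hodd
    omega
  exact false_of_pomega (good_odd (by omega) h2) (coe_oddForm m) e h2 C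

section

variable (H : ∀ (G : Type u) [Group G] [Finite G] [IsSimpleGroup G] (P N0 : Subgroup G) (z s : G)
    (ψ : ↥(normalizer (P : Set G)) →* Equiv.Perm (Fin 6)), CB P N0 z s ψ → Cfsg.IsLieTypeChar 2 G → False)
include H

/-- **The row `IsPOmegaPlus`**, from the characteristic 2 case (`H738/C3/Char2Rows.false_of_lieTwo`) -/
theorem row_plus_of : Cfsg.Agent.H527.Co3.Row.{u} @Cfsg.IsPOmegaPlus := by
  intro G _ _ _ hG P N0 z s ψ C
  obtain ⟨F, i1, i2, m, hm, ⟨e⟩⟩ := hG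
  by_cases h2 : (2 : F) = 0
  · have hch : CharP F 2 := CharTwo.of_one_ne_zero_of_two_eq_zero one_ne_zero h2
    exact H G P N0 z s ψ C (Or.inr (Or.inr (Or.inr (Or.inr (Or.inl ⟨F, i1, i2, hch, m, hm, ⟨e⟩⟩)))))
  · exact false_of_pomega (good_plus (by omega)) (coe_plusForm m) e h2 C

/-- **The row `IsPOmegaMinus`**, from the characteristic 2 case (`H738/C3/Char2Rows.false_of_lieTwo`) -/
theorem row_minus_of : Cfsg.Agent.H527.Co3.Row.{u} @Cfsg.IsPOmegaMinus := by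
  intro G _ _ _ hG P N0 z s ψ C
  obtain ⟨F, i1, i2, m, a, b, hm, hab, ⟨e⟩⟩ := hG
  by_cases h2 : (2 : F) = 0
  · have hch : CharP F 2 := CharTwo.of_one_ne_zero_of_two_eq_zero one_ne_zero h2
    exact H G P N0 z s ψ C (Or.inr (Or.inr (Or.inr (Or.inr (Or.inr (Or.inl ⟨F, i1, i2, hch, m, a, b, hm, hab, ⟨e⟩⟩))))))
  · exact false_of_pomega (good_minus (by omega) hab) (coe_minusForm (m - 1) a b) e h2 C

end

end Cfsg.Agent.H100.C3
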