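import Cfsg.Agent.H415.C3.LKitOne
import Cfsg.Agent.H10.Co3.OmTwo
import Cfsg.Agent.H382.Own5Lin

/-!
# S1920, case B, orthogonal groups, section 2, step (1): `sh` commutes with `Nh` (helper100)
-/

set_option autoImplicit false
set_option linter.unusedSectionVars false

open Subgroup

namespace Cfsg.Agent.H100.C3

open QuadraticMap Cfsg.Agent.H415.C3 Cfsg.Agent.LieClassical.OrthCore Cfsg.Agent.LieClassical.OrthTrans
open Cfsg.Agent.H10.Co3.Om Cfsg.Agent.H382.Own5
open Module (finrank)

section lin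

variable {F V : Type*} [Field F] [AddCommGroup V] [Module F V] {Q : QuadraticForm F V}

theorem det_refl [FiniteDimensional F V] (two : (2 : F) ≠ 0) {v : V} (hv : Q v ≠ 0) :
    LinearMap.det (refl Q v hv : V →ₗ[F] V) = -1 := by
  have hr : ∀ w, refl Q v hv (refl Q v hv w) = w := fun w => LinearEquiv.congr_fun (refl_mul_self hv) w
  rw [det_invol two (s := (refl Q v hv : V →ₗ[F] V)) hr]
  have h1 : eig (refl Q v hv : V →ₗ[F] V) (-1) = Submodule.span F {v} := by
    ext w
    rw [mem_eig, Submodule.mem_span_singleton]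
    constructor
    · intro h
      have h2 : refl Q v hv w = (-1 : F) • w := h
      rw [refl_apply] at h2
      refine ⟨(2 : F)⁻¹ * ((Q v)⁻¹ * polar Q v w), ?_⟩
      rw [mul_smul]
      have h3 : ((Q v)⁻¹ * polar Q v w) • v = (2 : F) • w := by
        rw [two_smul]
        rw [neg_smul, one_smul] at h2
        have h4 : ((Q v)⁻¹ * polar Q v w) • v = w - (w - ((Q v)⁻¹ * polar Q v w) • v) := by abel
        rw [h4, h2]; abel
      rw [h3, smul_smul, inv_mul_cancel₀ two, one_smul]
    · rintro ⟨a, rfl⟩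
      change refl Q v hv (a • v) = (-1 : F) • a • v
      rw [map_smul, refl_apply, polar_self', ← mul_assoc, mul_comm _ (2 : F), mul_assoc, inv_mul_cancel₀ hv, mul_one,
        two_smul]
      module
  have hv0 : v ≠ 0 := by rintro rfl; exact hv (map_zero Q)
  rw [h1, finrank_span_singleton hv0, pow_one]

/-- an isometry of square `-1` on its commutator space has determinant one -/
theorem det_rot [FiniteDimensional F V] [Finite F] (hG : Good Q) (two : (2 : F) ≠ 0) {g : V ≃ₗ[F] V} (hg : g ∈ O Q)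
    (hr : ∀ v, g (g (g v - v)) = -(g v - v)) : LinearMap.det (g : V →ₗ[F] V) = 1 := by
  obtain ⟨l, hl, -, rfl⟩ := rot_list hG two _ g hg hr rfl
  clear hg hr
  induction l with
  | nil => exact LinearMap.det_id
  | cons r l ih =>
    obtain ⟨u, x, hu, hx, -, -, rfl⟩ := hl r (by simp)
    have h1 : ((((refl Q u hu * refl Q x hx) :: l).prod : V ≃ₗ[F] V) : V →ₗ[F] V) =
        ((refl Q u hu : V →ₗ[F] V) ∘ₗ (refl Q x hx : V →ₗ[F] V)) ∘ₗ ((l.prod : V ≃ₗ[F] V) : V →ₗ[F] V) := by
      rw [List.prod_cons]; rfl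
    rw [h1, LinearMap.det_comp, LinearMap.det_comp, det_refl two, det_refl two,
      ih fun r hr => hl r (List.mem_cons_of_mem _ hr)]
    ring

/-- the two parts of an involutory isometry are orthogonal -/
theorem perp_half (two : (2 : F) ≠ 0) {u : V ≃ₗ[F] V} (hu : u ∈ O Q) {a b : V} (ha : u a = a) (hb : u b = -b) :
    polar Q a b = 0 := by
  have h := polar_map hu a b
  rw [ha, hb, polar_neg_right] at h
  have h3 : (2 : F) * polar Q a b = 0 := by linear_combination -h
  exact (mul_eq_zero.1 h3).resolve_left two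

theorem halfHom_mem_O (two : (2 : F) ≠ 0) {u : V ≃ₗ[F] V} (hu : u * u = 1) (huO : u ∈ O Q)
    (g : ↥(centralizer ({u} : Set (V ≃ₗ[F] V)))) (hg : (g : V ≃ₗ[F] V) ∈ O Q) : halfHom two hu g ∈ O Q := by
  intro v
  obtain ⟨a, b, rfl, ha, hb⟩ := half_decomp two hu v
  have h1 : u ((g : V ≃ₗ[F] V) a) = (g : V ≃ₗ[F] V) a := by
    have h2 : (g : V ≃ₗ[F] V) (u a) = u ((g : V ≃ₗ[F] V) a) :=
      LinearEquiv.congr_fun (mem_centralizer_singleton_iff.1 g.2) a
    rw [← h2, ha]
  rw [map_add, halfHom_pos two hu g ha, halfHom_neg two hu g hb, Q_add, Q_add, mem_O.1 hg,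
    perp_half two huO ha hb, perp_half two huO h1 hb]

theorem halfHom_comm (two : (2 : F) ≠ 0) {u : V ≃ₗ[F] V} (hu : u * u = 1)
    (g : ↥(centralizer ({u} : Set (V ≃ₗ[F] V)))) {m : V ≃ₗ[F] V} (hm : ∀ v, u (m v) = m (u v)) {γ : F}
    (hgm : ∀ a, u a = a → (g : V ≃ₗ[F] V) (m a) = γ • m ((g : V ≃ₗ[F] V) a)) {a b : V} (ha : u a = a) (hb : u b = -b) :
    halfHom two hu g (m (a + b)) = γ • m (halfHom two hu g a) + m b := by
  have h1 : u (m a) = m a := by rw [hm, ha]
  have h2 : u (m b) = - m b := by rw [hm, hb, map_neg]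
  rw [map_add, map_add, halfHom_pos two hu g h1, halfHom_neg two hu g h2, halfHom_pos two hu g ha, hgm a ha]

end lin

variable {G : Type*} [Group G]
variable {N0 A Ek : Subgroup G} {z s x r : G} {ψ : ↥A →* Equiv.Perm (Fin 6)}
variable {F V : Type*} [Field F] [AddCommGroup V] [Module F V] {Q : QuadraticForm F V} {π : ↥(E Q) →* G}
  {Nh Eh : Subgroup (V ≃ₗ[F] V)} {zh sh xh rh : V ≃ₗ[F] V}

/-- the basic facts on `sh²` -/
theorem s_facts (hG : Good Q) (two : (2 : F) ≠ 0) (l : LKit (E Q) π N0 A Ek z s x r Nh Eh zh sh xh rh) :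
    ∃ c : F, (c = 1 ∨ c = -1) ∧ (∀ v, zh v = c • sh (sh v)) ∧ (sh * sh) * (sh * sh) = 1 ∧
      (∃ a, a ≠ 0 ∧ sh (sh a) = a ∧ Q a ≠ 0) ∧ (∃ b, b ≠ 0 ∧ sh (sh b) = -b) := by
  have hQ : ∀ {g : V ≃ₗ[F] V}, g ∈ Nh → ∀ w, Q (g w) = Q w := fun hg w => mem_O.1 (E_le_O (l.Nh_le hg)) w
  have hns : ∃ v0, Q v0 ≠ 0 := by
    by_contra hcon
    push Not at hcon
    apply l.z_ne
    refine ⟨0, fun v => ?_⟩
    have h1 : v = 0 := hG.nondeg v fun w => by rw [QuadraticMap.polar, hcon, hcon, hcon]; ring
    rw [h1, map_zero, smul_zero]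
  obtain ⟨v0, hv0⟩ := hns
  obtain ⟨c, hc, h⟩ := l.s_sq
  have h' : ∀ v, sh (sh v) = c • zh v := h
  have hc1 : c * c = 1 := by
    have h1 := congrArg Q (h' v0)
    rw [hQ l.sN, hQ l.sN, QuadraticMap.map_smul, hQ l.zN, smul_eq_mul] at h1
    have h2 : (c * c - 1) * Q v0 = 0 := by linear_combination -h1
    exact sub_eq_zero.1 ((mul_eq_zero.1 h2).resolve_right hv0)
  have hz : ∀ v, zh v = c • sh (sh v) := fun v => by rw [h', smul_smul, hc1, one_smul]
  have hzz : ∀ w, zh (zh w) = w := fun w => LinearEquiv.congr_fun l.z_sq w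
  have hss : (sh * sh) * (sh * sh) = 1 := by
    apply LinearEquiv.ext
    intro v
    change sh (sh (sh (sh v))) = v
    rw [h' (sh (sh v)), h' v, map_smul, hzz, smul_smul, hc1, one_smul]
  have huO : sh * sh ∈ O Q := mul_mem (E_le_O (l.Nh_le l.sN)) (E_le_O (l.Nh_le l.sN))
  refine ⟨c, ?_, hz, hss, ?_, ?_⟩
  · have h4 : (c - 1) * (c + 1) = 0 := by linear_combination hc1
    rcases mul_eq_zero.1 h4 with h5 | h5
    · exact Or.inl (sub_eq_zero.1 h5)
    · exact Or.inr (eq_neg_of_add_eq_zero_left h5)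
  · by_contra hcon
    push Not at hcon
    -- then `Q = 0` on the fixed space, so the fixed space is zero
    have h0 : ∀ a, (sh * sh) a = a → a = 0 := by
      intro a ha
      have hQa : ∀ a, (sh * sh) a = a → Q a = 0 := by
        intro a ha
        by_cases ha0 : a = 0
        · rw [ha0, map_zero]
        · exact hcon a ha0 ha
      apply hG.nondeg
      intro w
      obtain ⟨a', b, rfl, ha', hb⟩ := half_decomp two hss w
      rw [polar_add_right, perp_half two huO ha hb, add_zero, QuadraticMap.polar, hQa _ ha, hQa _ ha',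
        hQa _ (by rw [map_add, ha, ha'])]
      ring
    apply l.z_ne
    refine ⟨-c, fun v => ?_⟩
    obtain ⟨a, b, rfl, ha, hb⟩ := half_decomp two hss v
    have hb' : sh (sh b) = -b := hb
    rw [hz, h0 a ha, zero_add, hb', smul_neg, neg_smul]
  · by_contra hcon
    push Not at hcon
    apply l.z_ne
    refine ⟨c, fun v => ?_⟩
    obtain ⟨a, b, rfl, ha, hb⟩ := half_decomp two hss v
    have hb0 : b = 0 := by
      by_contra hb0
      exact hcon b hb0 hb
    have ha' : sh (sh a) = a := ha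
    rw [hz, hb0, add_zero, ha']

/-- **step (1)** : `sh` commutes with `Nh`. -/
theorem sN_comm [Finite F] [FiniteDimensional F V] (hG : Good Q) (two : (2 : F) ≠ 0)
    (T : Kit N0 A Ek z s x r ψ) (L : Lin (E Q) π) (l : LKit (E Q) π N0 A Ek z s x r Nh Eh zh sh xh rh) :
    ∀ n ∈ Nh, n * sh = sh * n := by
  obtain ⟨c, hc, hz, hu, ⟨a0, ha0, haa, hQa⟩, ⟨b0, hb0, hbb⟩⟩ := s_facts hG two l
  have hc2 : c * c = 1 := by rcases hc with rfl | rfl <;> ring
  set u := sh * sh with hudef
  have hsO : sh ∈ O Q := E_le_O (l.Nh_le l.sN)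
  have huO : u ∈ O Q := mul_mem hsO hsO
  by_contra hcon
  push Not at hcon
  obtain ⟨n, hn, hns⟩ := hcon
  have hanti : ∀ v, n (sh v) = - sh (n v) := by
    rcases l.s_comm n hn with h | h
    · exact absurd (LinearEquiv.ext h) hns
    · exact h
  -- the correct element
  obtain ⟨n, hn, hanti, hsq⟩ : ∃ n ∈ Nh, (∀ v, n (sh v) = - sh (n v)) ∧ ∀ a, u a = a → n (n a) = - a := by
    obtain ⟨δ, hδ⟩ : ∃ δ : F, ∀ a, u a = a → n (n a) = δ • a := by
      obtain ⟨c1, -, h | h⟩ := l.sq n hn
      · exact ⟨c1, fun a _ => h a⟩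
      · refine ⟨c1 * c, fun a ha => ?_⟩
        have h1 : n (n a) = c1 • zh a := h a
        have ha' : sh (sh a) = a := ha
        rw [h1, hz, ha', smul_smul]
    have hδ2 : δ * δ = 1 := by
      have h1 := congrArg Q (hδ a0 haa)
      have hnO := mem_O.1 (E_le_O (l.Nh_le hn))
      rw [hnO, hnO, QuadraticMap.map_smul, smul_eq_mul] at h1
      have h2 : (δ * δ - 1) * Q a0 = 0 := by linear_combination -h1
      exact sub_eq_zero.1 ((mul_eq_zero.1 h2).resolve_right hQa)
    have h4 : (δ - 1) * (δ + 1) = 0 := by linear_combination hδ2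
    rcases mul_eq_zero.1 h4 with h5 | h5
    · refine ⟨n * sh, mul_mem hn l.sN, fun v => ?_, fun a ha => ?_⟩
      · change n (sh (sh v)) = - sh (n (sh v))
        rw [hanti (sh v)]
      · change n (sh (n (sh a))) = -a
        have ha' : sh (sh a) = a := ha
        have e1 : n (sh (sh a)) = sh (sh (n a)) := by rw [hanti (sh a), hanti a, map_neg, neg_neg]
        rw [hanti a, map_neg, ← e1, ha', map_neg, hδ a ha, sub_eq_zero.1 h5, one_smul]
    · exact ⟨n, hn, hanti, fun a ha => by rw [hδ a ha, eq_neg_of_add_eq_zero_left h5, neg_smul, one_smul]⟩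
  have hun : ∀ v, u (n v) = n (u v) := by
    intro v
    change sh (sh (n v)) = n (sh (sh v))
    rw [hanti (sh v), hanti v, map_neg, neg_neg]
  have hus : ∀ v, u (sh v) = sh (u v) := fun v => rfl
  have huu : ∀ v, u (u v) = v := fun v => LinearEquiv.congr_fun hu v
  have hnc : n ∈ centralizer ({u} : Set (V ≃ₗ[F] V)) := by
    rw [mem_centralizer_singleton_iff]
    exact LinearEquiv.ext fun v => (hun v).symm
  have hsc : sh ∈ centralizer ({u} : Set (V ≃ₗ[F] V)) := by
    rw [mem_centralizer_singleton_iff]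
    exact LinearEquiv.ext fun v => (hus v).symm
  have hnO : n ∈ O Q := E_le_O (l.Nh_le hn)
  -- `R = sh` on `Vr`, `1` on `Vc`; `J = 1` on `Vr`, `sh` on `Vc`
  set R : V ≃ₗ[F] V := halfHom two hu ⟨sh, hsc⟩ with hR
  have hRO : R ∈ O Q := halfHom_mem_O two hu huO ⟨sh, hsc⟩ hsO
  have hRp : ∀ a, u a = a → R a = sh a := fun a ha => halfHom_pos two hu ⟨sh, hsc⟩ ha
  have hRn : ∀ b, u b = -b → R b = b := fun b hb => halfHom_neg two hu ⟨sh, hsc⟩ hb
  have husa : ∀ a, u a = a → u (sh a) = sh a := fun a ha => by rw [hus, ha]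
  have husb : ∀ b, u b = -b → u (sh b) = - sh b := fun b hb => by rw [hus, hb, map_neg]
  have hRR : ∀ v, R (R v) = v := by
    intro v
    obtain ⟨a, b, rfl, ha, hb⟩ := half_decomp two hu v
    rw [map_add, map_add, hRp a ha, hRn b hb, hRp _ (husa a ha), hRn b hb]
    congr 1
  have hJO : R * sh ∈ O Q := mul_mem hRO hsO
  have hJp : ∀ a, u a = a → (R * sh) a = a := fun a ha => by
    change R (sh a) = a
    rw [hRp _ (husa a ha)]
    exact ha
  have hJn : ∀ b, u b = -b → (R * sh) b = sh b := fun b hb => hRn _ (husb b hb)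
  have hdJ : LinearMap.det ((R * sh : V ≃ₗ[F] V) : V →ₗ[F] V) = 1 := by
    refine det_rot hG two hJO fun v => ?_
    obtain ⟨a, b, rfl, ha, hb⟩ := half_decomp two hu v
    have h1 : (R * sh) (a + b) - (a + b) = sh b - b := by rw [map_add, hJp a ha, hJn b hb]; abel
    have h2 : u (sh b - b) = -(sh b - b) := by rw [map_sub, husb b hb, hb]; abel
    rw [h1, hJn _ h2, hJn _ (husb _ h2)]
    exact h2
  have hdR : LinearMap.det (R : V →ₗ[F] V) = 1 := by
    have h1 : LinearMap.det (sh : V →ₗ[F] V) = 1 := det_eq_one hG (l.Nh_le l.sN)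
    have h2 : ((R * sh : V ≃ₗ[F] V) : V →ₗ[F] V) = (R : V →ₗ[F] V) ∘ₗ (sh : V →ₗ[F] V) := rfl
    rw [h2, LinearMap.det_comp, h1, mul_one] at hdJ
    exact hdJ
  -- the dimension of `Vr` is divisible by four
  let Sp : Module.End F V := (sh : V →ₗ[F] V)
  let Vp : Submodule F V := eig Sp 1
  let Vm : Submodule F V := eig Sp (-1)
  have hVp : ∀ v, v ∈ Vp ↔ sh v = v := fun v => by
    rw [mem_eig, one_smul]; rfl
  have hVm : ∀ v, v ∈ Vm ↔ sh v = -v := fun v => by
    rw [mem_eig, neg_smul, one_smul]; rfl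
  have hRm : eig (R : Module.End F V) (-1) = Vm := by
    ext v
    rw [hVm, mem_eig, neg_smul, one_smul]
    change R v = -v ↔ _
    constructor
    · intro h
      obtain ⟨a, b, rfl, ha, hb⟩ := half_decomp two hu v
      rw [map_add, hRp a ha, hRn b hb] at h
      -- `sh a + b = -a - b`
      have h1 : u (sh a + b) = sh a - b := by rw [map_add, husa a ha, hb]; abel
      have h2 : u (-(a + b)) = -a + b := by rw [map_neg, map_add, ha, hb]; abel
      rw [h, h2] at h1
      have h3 : (2 : F) • (2 : F) • b = 0 := by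
        have h4 : b + b + (b + b) = (sh a + b) - -(a + b) - ((sh a - b) - (-a + b)) := by abel
        rw [two_smul F b, two_smul F (b + b), h4, h, ← h1]
        abel
      have h4 := (smul_eq_zero.1 ((smul_eq_zero.1 h3).resolve_left two)).resolve_left two
      rw [h4, add_zero, add_zero] at h
      rw [h4, add_zero]
      exact h
    · intro h
      have hv : u v = v := by
        change sh (sh v) = v
        rw [h, map_neg, h, neg_neg]
      rw [hRp v hv, h]
  have heven : Even (finrank F Vm) := by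
    have h1 := det_invol two (s := (R : Module.End F V)) hRR
    rw [hRm] at h1
    have h2 : (-1 : F) ^ finrank F Vm = 1 := h1.symm.trans hdR
    rcases Nat.even_or_odd (finrank F Vm) with h3 | h3
    · exact h3
    · exfalso
      rw [h3.neg_one_pow] at h2
      apply two
      linear_combination -h2
  have hpm : finrank F Vp = finrank F Vm := by
    apply le_antisymm
    · refine LinearMap.finrank_le_finrank_of_injective (f := (n : V →ₗ[F] V).restrict (p := Vp) (q := Vm) ?_) ?_
      · intro v hv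
        rw [hVm]
        have h1 : n (sh v) = - sh (n v) := hanti v
        rw [(hVp v).1 hv] at h1
        exact neg_eq_iff_eq_neg.1 h1.symm
      · intro v w h
        exact Subtype.ext (n.injective (congrArg Subtype.val h))
    · refine LinearMap.finrank_le_finrank_of_injective (f := (n : V →ₗ[F] V).restrict (p := Vm) (q := Vp) ?_) ?_
      · intro v hv
        rw [hVp]
        have h1 : n (sh v) = - sh (n v) := hanti v
        rw [(hVm v).1 hv, map_neg] at h1
        exact (neg_injective h1).symm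
      · intro v w h
        exact Subtype.ext (n.injective (congrArg Subtype.val h))
  let U : Module.End F V := (u : V →ₗ[F] V)
  let Vr : Submodule F V := eig U 1
  let Vc : Submodule F V := eig U (-1)
  have hVr : ∀ v, v ∈ Vr ↔ u v = v := fun v => by
    rw [mem_eig, one_smul]; rfl
  have hVc : ∀ v, v ∈ Vc ↔ u v = -v := fun v => by
    rw [mem_eig, neg_smul, one_smul]; rfl
  have hsup : Vp ⊔ Vm = Vr := by
    apply le_antisymm
    · refine sup_le (fun v hv => ?_) (fun v hv => ?_)
      · rw [hVr]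
        change sh (sh v) = v
        rw [(hVp v).1 hv, (hVp v).1 hv]
      · rw [hVr]
        change sh (sh v) = v
        rw [(hVm v).1 hv, map_neg, (hVm v).1 hv, neg_neg]
    · intro v hv
      have hv' : sh (sh v) = v := (hVr v).1 hv
      have h1 : v = (2 : F)⁻¹ • (v + sh v) + (2 : F)⁻¹ • (v - sh v) := by
        rw [← smul_add, show v + sh v + (v - sh v) = (2 : F) • v by rw [two_smul]; abel, smul_smul,
          inv_mul_cancel₀ two, one_smul]
      rw [h1]
      refine add_mem (Submodule.mem_sup_left (Vp.smul_mem _ ((hVp _).2 ?_)))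
        (Submodule.mem_sup_right (Vm.smul_mem _ ((hVm _).2 ?_)))
      · rw [map_add, hv', add_comm]
      · rw [map_sub, hv', neg_sub]
  have hinf : Vp ⊓ Vm = ⊥ := by
    rw [eq_bot_iff]
    rintro v ⟨h1, h2⟩
    have h3 := (hVp v).1 h1
    have h4 := (hVm v).1 h2
    rw [h3] at h4
    have h5 : (2 : F) • v = 0 := by
      rw [two_smul]; nth_rewrite 1 [h4]; rw [neg_add_cancel]
    exact (Submodule.mem_bot F).2 ((smul_eq_zero.1 h5).resolve_left two)
  have hfour : 4 ∣ finrank F Vr := by
    have h1 := Submodule.finrank_sup_add_finrank_inf_eq Vp Vm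
    rw [hsup, hinf, finrank_bot, add_zero, hpm] at h1
    obtain ⟨k, hk⟩ := heven
    exact ⟨k, by omega⟩
  -- the element `n` on `Vr`, `1` on `Vc`
  set n' : V ≃ₗ[F] V := halfHom two hu ⟨n, hnc⟩ with hn'
  have hnp : ∀ a, u a = a → n' a = n a := fun a ha => halfHom_pos two hu ⟨n, hnc⟩ ha
  have hnn : ∀ b, u b = -b → n' b = b := fun b hb => halfHom_neg two hu ⟨n, hnc⟩ hb
  have huna : ∀ a, u a = a → u (n a) = n a := fun a ha => by rw [hun, ha]
  have hn'O : n' ∈ O Q := halfHom_mem_O two hu huO ⟨n, hnc⟩ hnO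
  have hn'E : n' ∈ E Q := by
    refine rot_mem' hG two hn'O Vr Vc ?_ ?_ ?_ ?_ hfour
    · rw [eq_top_iff]
      intro v _
      obtain ⟨a, b, rfl, ha, hb⟩ := half_decomp two hu v
      exact add_mem (Submodule.mem_sup_left ((hVr a).2 ha)) (Submodule.mem_sup_right ((hVc b).2 hb))
    · intro w hw
      have hw' := (hVr w).1 hw
      rw [hnp w hw', hVr]
      exact huna w hw'
    · intro w hw
      have hw' := (hVr w).1 hw
      rw [hnp w hw', hnp _ (huna w hw')]
      exact hsq w hw'
    · intro w hw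
      exact hnn w ((hVc w).1 hw)
  have humv : ∀ m ∈ Nh, ∀ v, u (m v) = m (u v) := by
    intro m hm v
    have h1 : zh (m v) = m (zh v) := LinearEquiv.congr_fun (l.z_comm m hm) v
    rw [hz, hz, map_smul] at h1
    have hc0 : c ≠ 0 := fun h => by rw [h, mul_zero] at hc2; exact zero_ne_one hc2
    exact smul_right_injective V hc0 h1
  have hT := l.T1 T L (g := n') hn'E ?_ ?_
  · obtain ⟨c4, -, h4⟩ := hT
    have h4' : ∀ v, n' (sh v) = c4 • sh (n' v) := h4
    have h5 := h4' b0
    have hub : u b0 = -b0 := hbb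
    rw [hnn b0 hub, hnn _ (husb b0 hub)] at h5
    have h6 : (1 - c4) • sh b0 = 0 := by rw [sub_smul, one_smul, ← h5, sub_self]
    have h7 : c4 = 1 := by
      rcases smul_eq_zero.1 h6 with h8 | h8
      · exact (sub_eq_zero.1 h8).symm
      · exact absurd (sh.map_eq_zero_iff.1 h8) hb0
    have h8 := h4' a0
    have hua : u a0 = a0 := haa
    rw [hnp a0 hua, hnp _ (husa a0 hua), h7, one_smul, hanti] at h8
    have h9 : (2 : F) • sh (n a0) = 0 := by
      rw [two_smul]; nth_rewrite 1 [← h8]; rw [neg_add_cancel]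
    exact ha0 (n.map_eq_zero_iff.1 (sh.map_eq_zero_iff.1 ((smul_eq_zero.1 h9).resolve_left two)))
  · intro m hm
    have hum := humv m hm
    have hca : ∀ γ : F, (∀ a, u a = a → n (m a) = γ • m (n a)) → ∀ a b, u a = a → u b = -b →
        n' (m (a + b)) = γ • m (n' a) + m b := fun γ hγ a b ha hb =>
      halfHom_comm two hu ⟨n, hnc⟩ hum hγ ha hb
    obtain ⟨γ, hγ1, hγ⟩ : ∃ γ : F, (γ = 1 ∨ γ = -1) ∧ ∀ a, u a = a → n (m a) = γ • m (n a) := by
      obtain ⟨c5, hc5, h | h⟩ := l.comm n hn m hm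
      · exact ⟨c5, hc5, fun a _ => h a⟩
      · refine ⟨c5 * c, ?_, fun a ha => ?_⟩
        · rcases hc5 with rfl | rfl <;> rcases hc with rfl | rfl <;> simp
        · have h1 : n (m a) = c5 • zh (m (n a)) := h a
          have h2 : u (m (n a)) = m (n a) := by rw [hum, hun, ha]
          have h3 : sh (sh (m (n a))) = m (n a) := h2
          rw [h1, hz, h3, smul_smul]
    rcases hγ1 with h1 | h1
    · refine ⟨1, Or.inl fun v => ?_⟩
      obtain ⟨a, b, rfl, ha, hb⟩ := half_decomp two hu v
      change n' (m (a + b)) = (1 : F) • m (n' (a + b))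
      rw [hca γ hγ a b ha hb, h1, one_smul, one_smul, map_add, map_add, hnn b hb]
    · refine ⟨-c, Or.inr fun v => ?_⟩
      obtain ⟨a, b, rfl, ha, hb⟩ := half_decomp two hu v
      change n' (m (a + b)) = (-c) • zh (m (n' (a + b)))
      have h2 : u (m (n' a)) = m (n' a) := by rw [hum, hnp a ha, huna a ha]
      have h3 : u (m b) = - m b := by rw [hum, hb, map_neg]
      have h2' : sh (sh (m (n' a))) = m (n' a) := h2
      have h3' : sh (sh (m b)) = - m b := h3
      rw [hca γ hγ a b ha hb, h1, map_add n', map_add m, map_add zh, hnn b hb, hz, hz, h2', h3', smul_add, smul_smul,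
        smul_smul, neg_mul, hc2]
      module
  · intro e he
    refine ⟨1, fun v => ?_⟩
    have hen : ∀ v, e (n v) = n (e v) := fun v => LinearEquiv.congr_fun (l.Eh_comm e he n hn) v
    have heu : ∀ v, u (e v) = e (u v) := by
      intro v
      have h1 : ∀ v, e (sh v) = sh (e v) := fun v => LinearEquiv.congr_fun (l.Eh_comm e he sh l.sN) v
      change sh (sh (e v)) = e (sh (sh v))
      rw [h1, h1]
    obtain ⟨a, b, rfl, ha, hb⟩ := half_decomp two hu v
    change n' (e (a + b)) = (1 : F) • e (n' (a + b))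
    have h1 : u (e a) = e a := by rw [heu, ha]
    have h2 : u (e b) = - e b := by rw [heu, hb, map_neg]
    rw [one_smul, map_add, map_add, map_add n' a b, map_add, hnp _ h1, hnn _ h2, hnp a ha, hnn b hb, hen]

end Cfsg.Agent.H100.C3
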