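import Cfsg.Agent.AutOrth.Main
import Cfsg.Agent.H989.OutOrth.Basic
import Cfsg.Agent.H415.C3.LKit

/-!
# S1920, case B, orthogonal groups: the linear lift (helper100)
-/

set_option autoImplicit false

namespace Cfsg.Agent.H100.C3

open QuadraticMap Cfsg.Agent.H415.C3 Cfsg.Agent.LieClassical.OrthCore Cfsg.Agent.LieClassical.OrthTrans
  Cfsg.Agent.ClassicalGeometry.OrthSemi
open Cfsg.Agent.H989.OutOrth.Basic (ofO Psi_ofO)
open Cfsg.Agent.ClassicalGeometry.OrthAut1 (P)
open Cfsg.Agent.AutOrth.Main (pe good_plus good_minus good_odd)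
open Cfsg.Agent.LieClassical.QuadForms (plusForm minusForm oddForm coe_plusForm coe_minusForm coe_oddForm)

theorem lin_of {F V : Type*} [Field F] [AddCommGroup V] [Module F V] {Q : QuadraticForm F V} (hG : Good Q)
    {G : Type*} [Group G] (e : P Q ≃* G) :
    Lin (E Q) (e.toMonoidHom.comp (QuotientGroup.mk' (Subgroup.center ↥(E Q)))) where
  surj := e.surjective.comp (QuotientGroup.mk'_surjective _)
  ker g := by
    change e (QuotientGroup.mk g) = 1 ↔ _
    rw [EmbeddingLike.map_eq_one_iff, QuotientGroup.eq_one_iff]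
    constructor
    · intro h
      have h1 : Psi Q (ofO Q ⟨g, E_le_O g.2⟩) = 1 := by
        rw [Psi_ofO, (QuotientGroup.eq_one_iff g).2 h, map_one]
      rw [← MonoidHom.mem_ker, ker_Psi hG] at h1
      obtain ⟨a, ha⟩ := h1
      refine ⟨a, fun v => ?_⟩
      have h2 : (scal Q a).1 v = (ofO Q ⟨g, E_le_O g.2⟩).1 v := by rw [ha]
      exact h2.symm
    · rintro ⟨c, hc⟩
      rw [Subgroup.mem_center_iff]
      intro h
      apply Subtype.ext
      apply LinearEquiv.ext
      intro v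
      change (h : V ≃ₗ[F] V) ((g : V ≃ₗ[F] V) v) = (g : V ≃ₗ[F] V) ((h : V ≃ₗ[F] V) v)
      rw [hc, hc, map_smul]

theorem lin_pomega {ι : Type} [Fintype ι] [DecidableEq ι] {F : Type*} [Field F] {Q : QuadraticForm F (ι → F)}
    (hG : Good Q) {f : (ι → F) → F} (h : ⇑Q = f) {G : Type*} [Group G] (e : G ≃* Cfsg.POmega F f) :
    ∃ π : ↥(E Q) →* G, Lin (E Q) π := by
  subst h
  exact ⟨_, lin_of hG ((pe hG).symm.trans e.symm)⟩

/-- **the linear lift of an orthogonal group** -/
theorem exists_lin {G : Type*} [Group G] (h : Cfsg.IsPOmegaOdd G ∨ Cfsg.IsPOmegaPlus G ∨ Cfsg.IsPOmegaMinus G) :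
    ∃ (F : Type) (_ : Field F) (_ : Fintype F) (ι : Type) (_ : Fintype ι) (Q : QuadraticForm F (ι → F))
      (π : ↥(E Q) →* G), Good Q ∧ Lin (E Q) π := by
  rcases h with ⟨F, i1, i2, m, hm, hodd, ⟨e⟩⟩ | ⟨F, i1, i2, m, hm, ⟨e⟩⟩ | ⟨F, i1, i2, m, a, b, hm, hab, ⟨e⟩⟩
  · have h2 : (2 : F) ≠ 0 := by
      intro h2
      have h3 := FiniteField.even_card_of_char_two (F := F)
        (CharP.ringChar_of_prime_eq_zero Nat.prime_two (by exact_mod_cast h2))
      rw [Nat.odd_iff] at hodd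
      omega
    have hG : Good (oddForm m F) := good_odd (by omega) h2
    obtain ⟨π, hπ⟩ := lin_pomega hG (coe_oddForm m) e
    exact ⟨F, i1, i2, _, inferInstance, oddForm m F, π, hG, hπ⟩
  · have hG : Good (plusForm m F) := good_plus (by omega)
    obtain ⟨π, hπ⟩ := lin_pomega hG (coe_plusForm m) e
    exact ⟨F, i1, i2, _, inferInstance, plusForm m F, π, hG, hπ⟩
  · have hG : Good (minusForm (m - 1) F a b) := good_minus (by omega) hab
    obtain ⟨π, hπ⟩ := lin_pomega hG (coe_minusForm (m - 1) a b) e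
    exact ⟨F, i1, i2, _, inferInstance, minusForm (m - 1) F a b, π, hG, hπ⟩

end Cfsg.Agent.H100.C3
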